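import Mathlib

set_option autoImplicit false

namespace Cfsg.Agent.Lead

/-- Bound for the order of a nilpotent transitive permutation group of degree `m`:
the product over the primes `p ∣ m` of the `p`-part of `(p ^ v_p(m))!`. -/
def nilBound (m : ℕ) : ℕ :=
  ∏ p ∈ m.primeFactors, p ^ ((p ^ m.factorization p).factorial.factorization p)

end Cfsg.Agent.Lead
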