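import Mathlib

set_option autoImplicit false

namespace Cfsg.Agent.Lead

/-- superadditivity of the 2-adic valuation of factorials -/
theorem nn_v_add (a b : ℕ) :
    a.factorial.factorization 2 + b.factorial.factorization 2 ≤ (a + b).factorial.factorization 2 := by
  have hd := Nat.factorial_mul_factorial_dvd_factorial_add a b
  have h1 := (Nat.factorization_le_iff_dvd (Nat.mul_ne_zero a.factorial_ne_zero b.factorial_ne_zero)
    (a + b).factorial_ne_zero).mpr hd 2
  rw [Nat.factorization_mul a.factorial_ne_zero b.factorial_ne_zero] at h1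
  simpa using h1

theorem nn_v_of_dvd (d j k : ℕ) (hd : d ≠ 0) (h : d * j.factorial ∣ (j + k).factorial) :
    d.factorization 2 + j.factorial.factorization 2 ≤ (j + k).factorial.factorization 2 := by
  have h1 := (Nat.factorization_le_iff_dvd (Nat.mul_ne_zero hd j.factorial_ne_zero)
    (j + k).factorial_ne_zero).mpr h 2
  rw [Nat.factorization_mul hd j.factorial_ne_zero] at h1
  simpa using h1

theorem nn_fact3 (j : ℕ) : (j + 3).factorial = (j + 1) * (j + 2) * (j + 3) * j.factorial := by
  rw [show j + 3 = (j + 2) + 1 from rfl, Nat.factorial_succ, show j + 2 = (j + 1) + 1 from rfl,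
    Nat.factorial_succ, Nat.factorial_succ]
  ring

theorem nn_fact4 (j : ℕ) : (j + 4).factorial = (j + 1) * (j + 2) * (j + 3) * (j + 4) * j.factorial := by
  rw [show j + 4 = (j + 3) + 1 from rfl, Nat.factorial_succ, nn_fact3]
  ring

theorem nn_fact2 (j : ℕ) : (j + 2).factorial = (j + 1) * (j + 2) * j.factorial := by
  rw [show j + 2 = (j + 1) + 1 from rfl, Nat.factorial_succ, Nat.factorial_succ]
  ring

theorem nn_fz4 : (4 : ℕ).factorization 2 = 2 := by
  rw [show (4 : ℕ) = 2 ^ 2 from rfl, Nat.factorization_pow]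
  simp [Nat.Prime.factorization_self Nat.prime_two]

theorem nn_fz8 : (8 : ℕ).factorization 2 = 3 := by
  rw [show (8 : ℕ) = 2 ^ 3 from rfl, Nat.factorization_pow]
  simp [Nat.Prime.factorization_self Nat.prime_two]

theorem nn_fz2 : (2 : ℕ).factorization 2 = 1 := Nat.Prime.factorization_self Nat.prime_two

theorem nn_v3 (j : ℕ) (hj : j % 4 ≠ 0) :
    j.factorial.factorization 2 + 2 ≤ (j + 3).factorial.factorization 2 := by
  have hd : 4 * j.factorial ∣ (j + 3).factorial := by
    rw [nn_fact3]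
    apply Nat.mul_dvd_mul_right
    obtain ⟨q, r, hr, rfl⟩ : ∃ q r, r < 4 ∧ j = 4 * q + r :=
      ⟨j / 4, j % 4, Nat.mod_lt _ (by norm_num), (Nat.div_add_mod j 4).symm⟩
    interval_cases r
    · exfalso; apply hj; omega
    · exact ⟨(4 * q + 2) * (4 * q + 3) * (q + 1), by ring⟩
    · exact ⟨(4 * q + 3) * (q + 1) * (4 * q + 5), by ring⟩
    · exact ⟨(q + 1) * (4 * q + 5) * (4 * q + 6), by ring⟩
  have := nn_v_of_dvd 4 j 3 (by norm_num) hd
  rw [nn_fz4] at this
  omega

theorem nn_v4 (j : ℕ) :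
    j.factorial.factorization 2 + 3 ≤ (j + 4).factorial.factorization 2 := by
  have hd : 8 * j.factorial ∣ (j + 4).factorial := by
    rw [nn_fact4]
    apply Nat.mul_dvd_mul_right
    obtain ⟨q, r, hr, rfl⟩ : ∃ q r, r < 4 ∧ j = 4 * q + r :=
      ⟨j / 4, j % 4, Nat.mod_lt _ (by norm_num), (Nat.div_add_mod j 4).symm⟩
    interval_cases r
    · exact ⟨(4 * q + 1) * (2 * q + 1) * (4 * q + 3) * (q + 1), by ring⟩
    · exact ⟨(2 * q + 1) * (4 * q + 3) * (q + 1) * (4 * q + 5), by ring⟩
    · exact ⟨(4 * q + 3) * (q + 1) * (4 * q + 5) * (2 * q + 3), by ring⟩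
    · exact ⟨(q + 1) * (4 * q + 5) * (2 * q + 3) * (4 * q + 7), by ring⟩
  have := nn_v_of_dvd 8 j 4 (by norm_num) hd
  rw [nn_fz8] at this
  omega

theorem nn_v2 (j : ℕ) :
    j.factorial.factorization 2 + 1 ≤ (j + 2).factorial.factorization 2 := by
  have hd : 2 * j.factorial ∣ (j + 2).factorial := by
    rw [nn_fact2]
    apply Nat.mul_dvd_mul_right
    rcases Nat.even_or_odd j with ⟨q, rfl⟩ | ⟨q, rfl⟩
    · exact ⟨(q + q + 1) * (q + 1), by ring⟩
    · exact ⟨(q + 1) * (2 * q + 1 + 2), by ring⟩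
  have := nn_v_of_dvd 2 j 2 (by norm_num) hd
  rw [nn_fz2] at this
  omega

theorem nn_v6 (j : ℕ) :
    j.factorial.factorization 2 + 4 ≤ (j + 6).factorial.factorization 2 := by
  have h1 := nn_v4 j
  have h2 := nn_v2 (j + 4)
  rw [show j + 4 + 2 = j + 6 from rfl] at h2
  omega

theorem nn_pairs (t j : ℕ) :
    3 ^ (2 * t) * 2 ^ (j.factorial.factorization 2) ≤ 2 ^ ((j + 6 * t).factorial.factorization 2) := by
  induction t generalizing j with
  | zero => simp
  | succ t ih =>
    have h6 := nn_v6 j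
    have := ih (j + 6)
    rw [show j + 6 + 6 * t = j + 6 * (t + 1) by ring] at this
    calc 3 ^ (2 * (t + 1)) * 2 ^ (j.factorial.factorization 2)
        = 3 ^ (2 * t) * (9 * 2 ^ (j.factorial.factorization 2)) := by ring
      _ ≤ 3 ^ (2 * t) * (2 ^ 4 * 2 ^ (j.factorial.factorization 2)) := by
          apply Nat.mul_le_mul_left
          apply Nat.mul_le_mul_right
          norm_num
      _ = 3 ^ (2 * t) * 2 ^ (j.factorial.factorization 2 + 4) := by ring
      _ ≤ 3 ^ (2 * t) * 2 ^ ((j + 6).factorial.factorization 2) := by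
          apply Nat.mul_le_mul_left
          exact Nat.pow_le_pow_right (by norm_num) h6
      _ ≤ _ := this

theorem nn_threes (k j : ℕ) (h : (j + 3 * k) % 4 ≠ 3) :
    3 ^ k * 2 ^ (j.factorial.factorization 2) ≤ 2 ^ ((j + 3 * k).factorial.factorization 2) := by
  rcases Nat.even_or_odd k with ⟨t, rfl⟩ | ⟨t, rfl⟩
  · have := nn_pairs t j
    rw [show t + t = 2 * t by ring, show j + 3 * (2 * t) = j + 6 * t by ring]
    exact this
  · have h1 := nn_pairs t j
    have hj : (j + 6 * t) % 4 ≠ 0 := by omega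
    have h3 := nn_v3 (j + 6 * t) hj
    rw [show j + 3 * (2 * t + 1) = j + 6 * t + 3 by ring]
    calc 3 ^ (2 * t + 1) * 2 ^ (j.factorial.factorization 2)
        = 3 * (3 ^ (2 * t) * 2 ^ (j.factorial.factorization 2)) := by ring
      _ ≤ 3 * 2 ^ ((j + 6 * t).factorial.factorization 2) := Nat.mul_le_mul_left _ h1
      _ ≤ 2 ^ 2 * 2 ^ ((j + 6 * t).factorial.factorization 2) := by
          apply Nat.mul_le_mul_right
          norm_num
      _ = 2 ^ ((j + 6 * t).factorial.factorization 2 + 2) := by ring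
      _ ≤ _ := Nat.pow_le_pow_right (by norm_num) h3

theorem nn_main (c : ℕ → ℕ)
    (hc : ∀ m, 0 < m → m ≠ 3 → c m ≤ 2 ^ (m.factorial.factorization 2)) (hc3 : c 3 = 3)
    (l : Multiset ℕ) (hpos : ∀ m ∈ l, 0 < m) :
    3 * l.count 3 ≤ l.sum ∧
      (l.map c).prod ≤ 3 ^ (l.count 3) * 2 ^ ((l.sum - 3 * l.count 3).factorial.factorization 2) := by
  induction l using Multiset.induction with
  | empty => simp
  | cons a l ih =>
    have ih' := ih (fun m hm => hpos m (Multiset.mem_cons_of_mem hm))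
    obtain ⟨h1, h2⟩ := ih'
    by_cases ha : a = 3
    · subst ha
      rw [Multiset.count_cons_self, Multiset.sum_cons, Multiset.map_cons, Multiset.prod_cons, hc3]
      refine ⟨by omega, ?_⟩
      rw [show 3 + l.sum - 3 * (Multiset.count 3 l + 1) = l.sum - 3 * Multiset.count 3 l by omega]
      calc 3 * (l.map c).prod ≤ 3 * (3 ^ (l.count 3) * 2 ^ ((l.sum - 3 * l.count 3).factorial.factorization 2)) :=
            Nat.mul_le_mul_left _ h2
        _ = _ := by ring
    · rw [Multiset.count_cons_of_ne (Ne.symm ha), Multiset.sum_cons, Multiset.map_cons, Multiset.prod_cons]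
      refine ⟨by omega, ?_⟩
      have hca := hc a (hpos a (Multiset.mem_cons_self a l)) ha
      have hv := nn_v_add a (l.sum - 3 * Multiset.count 3 l)
      rw [show a + l.sum - 3 * Multiset.count 3 l = a + (l.sum - 3 * Multiset.count 3 l) by omega]
      calc c a * (l.map c).prod
          ≤ 2 ^ (a.factorial.factorization 2) *
              (3 ^ (l.count 3) * 2 ^ ((l.sum - 3 * l.count 3).factorial.factorization 2)) :=
            Nat.mul_le_mul hca h2
        _ = 3 ^ (l.count 3) * 2 ^ (a.factorial.factorization 2 +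
              (l.sum - 3 * l.count 3).factorial.factorization 2) := by ring
        _ ≤ _ := by
            apply Nat.mul_le_mul_left
            exact Nat.pow_le_pow_right (by norm_num) hv

theorem nil_prod_le_of (c : ℕ → ℕ)
    (hc : ∀ m, 0 < m → m ≠ 3 → c m ≤ 2 ^ (m.factorial.factorization 2)) (hc3 : c 3 = 3)
    (l : Multiset ℕ) (hpos : ∀ m ∈ l, 0 < m) (h : l.sum % 4 ≠ 3) :
    (l.map c).prod ≤ 2 ^ (l.sum.factorial.factorization 2) := by
  obtain ⟨h1, h2⟩ := nn_main c hc hc3 l hpos
  have h3 := nn_threes (l.count 3) (l.sum - 3 * l.count 3)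
    (by rw [show l.sum - 3 * l.count 3 + 3 * l.count 3 = l.sum by omega]; exact h)
  rw [show l.sum - 3 * l.count 3 + 3 * l.count 3 = l.sum by omega] at h3
  exact le_trans h2 h3

end Cfsg.Agent.Lead
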