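import Mathlib
import Cfsg.Agent.Lead.NilBound
import Cfsg.Agent.Lead.NilNum

set_option autoImplicit false

namespace Cfsg.Agent.Lead

/-- `pw p n` is the `p`-adic valuation of `n!`. -/
def pw (p n : ℕ) : ℕ := n.factorial.factorization p

theorem pw_mul (p : ℕ) (hp : p.Prime) (n : ℕ) : pw p (p * n) = pw p n + n := by
  have : Fact p.Prime := ⟨hp⟩
  unfold pw
  rw [Nat.factorization_def _ hp, Nat.factorization_def _ hp]
  exact padicValNat_factorial_mul n

theorem pw_one (p : ℕ) : pw p 1 = 0 := by simp [pw]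

theorem pw_zero (p : ℕ) : pw p 0 = 0 := by simp [pw]

theorem pw_mono (p : ℕ) {a b : ℕ} (h : a ≤ b) : pw p a ≤ pw p b := by
  unfold pw
  exact (Nat.factorization_le_iff_dvd a.factorial_ne_zero b.factorial_ne_zero).mpr
    (Nat.factorial_dvd_factorial h) p

theorem pw_two_add (a b : ℕ) : pw 2 a + pw 2 b ≤ pw 2 (a + b) := nn_v_add a b

/-- for a prime `p ≥ 5`: `p ^ n ≤ 2 ^ v₂(((p-1) n)!)` -/
theorem pp_step5 (p : ℕ) (hp : p.Prime) (h5 : 5 ≤ p) (n : ℕ) : p ^ n ≤ 2 ^ pw 2 ((p - 1) * n) := by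
  have hodd : p % 2 = 1 := by
    rcases hp.eq_two_or_odd with h | h
    · omega
    · exact h
  obtain ⟨k, hk⟩ : ∃ k, p = 2 * k + 1 := ⟨p / 2, by omega⟩
  have hk2 : 2 ≤ k := by omega
  have h1 : (p - 1) * n = 2 * (k * n) := by
    rw [hk]; simp; ring
  rw [h1, pw_mul 2 Nat.prime_two]
  have h2 : pw 2 (2 * n) ≤ pw 2 (k * n) := pw_mono 2 (Nat.mul_le_mul_right n hk2)
  rw [pw_mul 2 Nat.prime_two] at h2
  have h3 : (k + 1) * n ≤ pw 2 (k * n) + k * n := by nlinarith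
  have h4 : p ≤ 2 ^ (k + 1) := by
    have := @Nat.lt_two_pow_self k
    rw [hk, pow_succ]; omega
  calc p ^ n ≤ (2 ^ (k + 1)) ^ n := Nat.pow_le_pow_left h4 n
    _ = 2 ^ ((k + 1) * n) := by rw [← pow_mul]
    _ ≤ _ := Nat.pow_le_pow_right (by norm_num) h3

theorem pp_ge5 (p : ℕ) (hp : p.Prime) (h5 : 5 ≤ p) (a : ℕ) : p ^ pw p (p ^ a) ≤ 2 ^ pw 2 (p ^ a) := by
  induction a with
  | zero => simp [pw_one]
  | succ a ih =>
    rw [pow_succ, mul_comm (p ^ a) p, pw_mul p hp, pow_add]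
    have hs := pp_step5 p hp h5 (p ^ a)
    have hadd := pw_two_add (p ^ a) ((p - 1) * p ^ a)
    have hsum : p ^ a + (p - 1) * p ^ a = p * p ^ a := by
      have h1 : 1 ≤ p := hp.one_lt.le
      calc p ^ a + (p - 1) * p ^ a = (1 + (p - 1)) * p ^ a := by ring
        _ = p * p ^ a := by rw [Nat.add_sub_cancel' h1]
    rw [hsum] at hadd
    calc p ^ pw p (p ^ a) * p ^ p ^ a ≤ 2 ^ pw 2 (p ^ a) * 2 ^ pw 2 ((p - 1) * p ^ a) := Nat.mul_le_mul ih hs
      _ = 2 ^ (pw 2 (p ^ a) + pw 2 ((p - 1) * p ^ a)) := by rw [pow_add]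
      _ ≤ _ := Nat.pow_le_pow_right (by norm_num) hadd

theorem pp_three_R (b : ℕ) : 2 * pw 3 (3 ^ b) + 1 = 3 ^ b := by
  induction b with
  | zero => simp [pw_one]
  | succ b ih =>
    rw [pow_succ, mul_comm (3 ^ b) 3, pw_mul 3 Nat.prime_three]
    omega

theorem pp_Q (B : ℕ) (hB : 2 ≤ B) : 3 ^ (B + 1) ≤ 2 ^ (2 * B + 1) := by
  induction B, hB using Nat.le_induction with
  | base => norm_num
  | succ B hB ih =>
    calc 3 ^ (B + 1 + 1) = 3 * 3 ^ (B + 1) := by ring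
      _ ≤ 4 * 2 ^ (2 * B + 1) := Nat.mul_le_mul (by norm_num) ih
      _ = 2 ^ (2 * (B + 1) + 1) := by ring

theorem pp_three (b : ℕ) (hb : 2 ≤ b) : 3 ^ pw 3 (3 ^ b) ≤ 2 ^ pw 2 (3 ^ b) := by
  induction b, hb using Nat.le_induction with
  | base =>
    have hR := pp_three_R 2
    have h3 : pw 3 (3 ^ 2) = 4 := by omega
    have h8 : pw 2 8 = 7 := by
      have e1 : pw 2 (2 * 4) = pw 2 4 + 4 := pw_mul 2 Nat.prime_two 4
      have e2 : pw 2 (2 * 2) = pw 2 2 + 2 := pw_mul 2 Nat.prime_two 2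
      have e3 : pw 2 (2 * 1) = pw 2 1 + 1 := pw_mul 2 Nat.prime_two 1
      have e4 := pw_one 2
      norm_num at e1 e2 e3
      omega
    have h9 : 7 ≤ pw 2 (3 ^ 2) := by
      rw [← h8]; exact pw_mono 2 (by norm_num)
    rw [h3]
    calc 3 ^ 4 ≤ 2 ^ 7 := by norm_num
      _ ≤ _ := Nat.pow_le_pow_right (by norm_num) h9
  | succ b hb ih =>
    have hR := pp_three_R b
    set n := 3 ^ b with hn
    set B := pw 3 n with hB
    set A := pw 2 n with hA
    have hB2 : 2 ≤ B := by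
      have : 9 ≤ n := by
        rw [hn]
        calc 9 = 3 ^ 2 := by norm_num
          _ ≤ 3 ^ b := Nat.pow_le_pow_right (by norm_num) hb
      omega
    have e1 : pw 3 (3 ^ (b + 1)) = B + n := by
      rw [pow_succ, mul_comm (3 ^ b) 3, pw_mul 3 Nat.prime_three]
    have e2 : 2 * A + n ≤ pw 2 (3 ^ (b + 1)) := by
      have h1 := pw_two_add n (2 * n)
      rw [pw_mul 2 Nat.prime_two] at h1
      have : n + 2 * n = 3 ^ (b + 1) := by rw [hn]; ring
      rw [this] at h1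
      omega
    rw [e1]
    have hQ := pp_Q B hB2
    calc 3 ^ (B + n) = 3 ^ B * 3 ^ B * 3 ^ (B + 1) := by
          rw [show B + n = B + B + (B + 1) by omega]; ring
      _ ≤ 2 ^ A * 2 ^ A * 2 ^ (2 * B + 1) := Nat.mul_le_mul (Nat.mul_le_mul ih ih) hQ
      _ = 2 ^ (2 * A + n) := by
          rw [show 2 * A + n = A + A + (2 * B + 1) by omega]; ring
      _ ≤ _ := Nat.pow_le_pow_right (by norm_num) e2

/-- prime powers other than 3 -/
theorem pp_main (p : ℕ) (hp : p.Prime) (a : ℕ) (ha : 1 ≤ a) (h3 : p ^ a ≠ 3) :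
    p ^ pw p (p ^ a) ≤ 2 ^ pw 2 (p ^ a) := by
  by_cases h2 : p = 2
  · subst h2; exact le_refl _
  by_cases h3' : p = 3
  · subst h3'
    have : 2 ≤ a := by
      by_contra hcon
      have : a = 1 := by omega
      subst this
      exact h3 (by norm_num)
    exact pp_three a this
  · have h5 : 5 ≤ p := by
      have := hp.two_le
      by_contra hcon
      have : p = 4 := by omega
      subst this
      exact absurd hp (by norm_num)
    exact pp_ge5 p hp h5 a

end Cfsg.Agent.Lead
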