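import Mathlib
import Cfsg.Agent.Lead.NilBound
import Cfsg.Agent.Lead.NilNum
import Cfsg.Agent.Lead.NilPP

set_option autoImplicit false

namespace Cfsg.Agent.Lead

theorem nb_T (m : ℕ) (s : Finset ℕ) (hs : s ⊆ m.primeFactors)
    (h3 : ∀ p ∈ s, p ^ m.factorization p ≠ 3) :
    ∏ p ∈ s, p ^ pw p (p ^ m.factorization p) ≤ 2 ^ pw 2 (∏ p ∈ s, p ^ m.factorization p) := by
  classical
  induction s using Finset.induction_on with
  | empty => simp [pw_one]
  | insert a s ha ih =>
    rw [Finset.prod_insert ha, Finset.prod_insert ha]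
    have has : a ∈ m.primeFactors := hs (Finset.mem_insert_self a s)
    have hap : a.Prime := Nat.prime_of_mem_primeFactors has
    have hm0 : m ≠ 0 := (Nat.mem_primeFactors.mp has).2.2
    have hfa : 1 ≤ m.factorization a :=
      Nat.Prime.factorization_pos_of_dvd hap hm0 (Nat.dvd_of_mem_primeFactors has)
    have ih' := ih (fun x hx => hs (Finset.mem_insert_of_mem hx))
      (fun p hp => h3 p (Finset.mem_insert_of_mem hp))
    have hpp := pp_main a hap (m.factorization a) hfa (h3 a (Finset.mem_insert_self a s))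
    have hQpos : 1 ≤ ∏ p ∈ s, p ^ m.factorization p := by
      apply Nat.one_le_iff_ne_zero.mpr
      apply Finset.prod_ne_zero_iff.mpr
      intro p hp
      have hpp' : p.Prime := Nat.prime_of_mem_primeFactors (hs (Finset.mem_insert_of_mem hp))
      exact pow_ne_zero _ hpp'.ne_zero
    have hg2 : 2 ≤ a ^ m.factorization a :=
      le_trans hap.two_le (Nat.le_self_pow (by omega) a)
    rcases Nat.lt_or_ge (∏ p ∈ s, p ^ m.factorization p) 2 with hQ | hQ
    · have hQ1 : ∏ p ∈ s, p ^ m.factorization p = 1 := by omega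
      rw [hQ1, pw_one] at ih'
      rw [hQ1, mul_one]
      calc a ^ pw a (a ^ m.factorization a) * ∏ p ∈ s, p ^ pw p (p ^ m.factorization p)
          ≤ 2 ^ pw 2 (a ^ m.factorization a) * 2 ^ 0 := Nat.mul_le_mul hpp ih'
        _ = _ := by simp
    · have hadd := pw_two_add (a ^ m.factorization a) (∏ p ∈ s, p ^ m.factorization p)
      have hmono := pw_mono 2 (Nat.add_le_mul hg2 hQ)
      calc a ^ pw a (a ^ m.factorization a) * ∏ p ∈ s, p ^ pw p (p ^ m.factorization p)
          ≤ 2 ^ pw 2 (a ^ m.factorization a) * 2 ^ pw 2 (∏ p ∈ s, p ^ m.factorization p) :=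
            Nat.mul_le_mul hpp ih'
        _ = 2 ^ (pw 2 (a ^ m.factorization a) + pw 2 (∏ p ∈ s, p ^ m.factorization p)) := by
            rw [pow_add]
        _ ≤ _ := Nat.pow_le_pow_right (by norm_num) (le_trans hadd hmono)

theorem nb_prod_self (m : ℕ) (hm : m ≠ 0) : ∏ p ∈ m.primeFactors, p ^ m.factorization p = m := by
  have := Nat.prod_factorization_pow_eq_self hm
  rw [Finsupp.prod, Nat.support_factorization] at this
  exact this

theorem nilBound_eq (m : ℕ) :
    nilBound m = ∏ p ∈ m.primeFactors, p ^ pw p (p ^ m.factorization p) := rfl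

theorem nb_eq_three (m p : ℕ) (hp : p ∈ m.primeFactors) (h : p ^ m.factorization p = 3) : p = 3 := by
  have hpp : p.Prime := Nat.prime_of_mem_primeFactors hp
  have hm0 : m ≠ 0 := (Nat.mem_primeFactors.mp hp).2.2
  have hpos := Nat.Prime.factorization_pos_of_dvd hpp hm0 (Nat.dvd_of_mem_primeFactors hp)
  have : p ∣ 3 := by
    rw [← h]; exact dvd_pow_self p (by omega)
  exact (Nat.prime_dvd_prime_iff_eq hpp Nat.prime_three).mp this

theorem nilBound_le (m : ℕ) (hm : 0 < m) (h3 : m ≠ 3) :
    nilBound m ≤ 2 ^ (m.factorial.factorization 2) := by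
  rw [nilBound_eq]
  show _ ≤ 2 ^ pw 2 m
  by_cases hcase : ∃ p ∈ m.primeFactors, p ^ m.factorization p = 3
  swap
  · have := nb_T m m.primeFactors (Finset.Subset.refl _) (fun p hp h => hcase ⟨p, hp, h⟩)
    rwa [nb_prod_self m (by omega)] at this
  · obtain ⟨p, hp, hp3⟩ := hcase
    have hp_eq : p = 3 := nb_eq_three m p hp hp3
    subst hp_eq
    have hf1 : m.factorization 3 = 1 := by
      have h' : 3 ^ m.factorization 3 = 3 ^ 1 := by simpa using hp3
      exact Nat.pow_right_injective (by norm_num : 2 ≤ 3) h'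
    rw [← Finset.mul_prod_erase _ _ hp]
    have hu := nb_T m (m.primeFactors.erase 3) (Finset.erase_subset _ _) (fun q hq hq3 =>
      (Finset.ne_of_mem_erase hq) (nb_eq_three m q (Finset.mem_of_mem_erase hq) hq3))
    have hm3 : 3 * ∏ p ∈ m.primeFactors.erase 3, p ^ m.factorization p = m := by
      have := nb_prod_self m (by omega)
      rw [← Finset.mul_prod_erase _ _ hp, hf1] at this
      simpa using this
    generalize (∏ p ∈ m.primeFactors.erase 3, p ^ m.factorization p) = u at hu hm3
    have hu2 : 2 ≤ u := by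
      rcases Nat.lt_or_ge u 2 with h | h
      · interval_cases u <;> omega
      · exact h
    rw [hf1]
    have hw3 : pw 3 (3 ^ 1) = 1 := by
      have := pw_mul 3 Nat.prime_three 1
      rw [pw_one] at this
      simpa using this
    rw [hw3]
    have h4 : pw 2 u + 3 ≤ pw 2 (u + 4) := nn_v4 u
    have hmono : pw 2 (u + 4) ≤ pw 2 m := pw_mono 2 (by omega)
    calc 3 ^ 1 * ∏ p ∈ m.primeFactors.erase 3, p ^ pw p (p ^ m.factorization p)
        ≤ 2 ^ 2 * 2 ^ pw 2 u := Nat.mul_le_mul (by norm_num) hu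
      _ = 2 ^ (pw 2 u + 2) := by ring
      _ ≤ 2 ^ pw 2 m := Nat.pow_le_pow_right (by norm_num) (by omega)

theorem nilBound_three : nilBound 3 = 3 := by
  rw [nilBound_eq, Nat.Prime.primeFactors Nat.prime_three, Finset.prod_singleton,
    Nat.Prime.factorization_self Nat.prime_three]
  have h := pw_mul 3 Nat.prime_three 1
  rw [pw_one] at h
  have h' : pw 3 (3 ^ 1) = 1 := by simpa using h
  rw [h']
  norm_num

end Cfsg.Agent.Lead
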