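import Mathlib

set_option autoImplicit false

namespace Cfsg.Agent.Lead

/-- Orbit induction: a nilpotent group acting faithfully on a finite set is bounded by the product of the
transitive bounds `c` over a multiset of positive integers summing to the degree. -/
theorem nil_orbit_aux (c : ℕ → ℕ)
    (hc : ∀ (N Ω : Type) [Group N] [Finite N] [Fintype Ω] [MulAction N Ω] [FaithfulSMul N Ω]
      [MulAction.IsPretransitive N Ω], Group.IsNilpotent N → Nat.card N ≤ c (Fintype.card Ω)) :
    ∀ (k : ℕ) (N Ω : Type) [Group N] [Finite N] [Finite Ω] [MulAction N Ω] [FaithfulSMul N Ω],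
      Group.IsNilpotent N → Nat.card Ω = k →
      ∃ l : Multiset ℕ, (∀ m ∈ l, 0 < m) ∧ l.sum = k ∧ Nat.card N ≤ (l.map c).prod := by
  intro k
  induction k using Nat.strong_induction_on with
  | _ k ih =>
    intro N Ω _ _ _ _ _ hN hk
    rcases isEmpty_or_nonempty Ω with hΩ | ⟨⟨ω⟩⟩
    · refine ⟨0, by simp, ?_, ?_⟩
      · simp [← hk]
      · have : Subsingleton N := by
          refine ⟨fun a b => ?_⟩
          exact FaithfulSMul.eq_of_smul_eq_smul (α := Ω) (fun x => (hΩ.false x).elim)
        simp [Nat.card_unique]
    · classical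
      let O : Set Ω := MulAction.orbit N ω
      let φ : N →* Equiv.Perm O := MulAction.toPermHom N O
      -- the complement as a sub-action
      let S : SubMulAction N Ω :=
        { carrier := Oᶜ
          smul_mem' := by
            intro g x hx hgx
            apply hx
            have : x = g⁻¹ • (g • x) := by simp
            rw [this]
            exact (MulAction.mem_orbit_iff.mpr (by
              obtain ⟨h, hh⟩ := MulAction.mem_orbit_iff.mp hgx
              exact ⟨g⁻¹ * h, by rw [mul_smul, hh]⟩)) }
      have hfaithK : FaithfulSMul φ.ker S := by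
        refine ⟨fun {a b} h => ?_⟩
        apply Subtype.ext
        apply FaithfulSMul.eq_of_smul_eq_smul (α := Ω)
        intro x
        by_cases hx : x ∈ O
        · have ha : φ a.1 = 1 := a.2
          have hb : φ b.1 = 1 := b.2
          have h1 : (φ a.1) ⟨x, hx⟩ = (φ b.1) ⟨x, hx⟩ := by rw [ha, hb]
          have h2 := congrArg Subtype.val h1
          exact h2
        · have h1 := h ⟨x, hx⟩
          have h2 := congrArg Subtype.val h1
          exact h2
      have hOpos : 0 < Nat.card O := by
        have : Nonempty O := ⟨⟨ω, MulAction.mem_orbit_self ω⟩⟩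
        exact Nat.card_pos
      have hsum : Nat.card O + Nat.card S = k := by
        have h1 : Nat.card S = Nat.card (Oᶜ : Set Ω) := rfl
        rw [h1, ← hk, Nat.card_coe_set_eq, Nat.card_coe_set_eq, Set.ncard_add_ncard_compl]
      have hlt : Nat.card S < k := by omega
      have hKnil : Group.IsNilpotent φ.ker := inferInstance
      obtain ⟨l', hpos', hsum', hle'⟩ := ih (Nat.card S) hlt φ.ker S hKnil rfl
      -- the transitive part
      have hRnil : Group.IsNilpotent φ.range :=
        Group.nilpotent_of_surjective φ.rangeRestrict φ.rangeRestrict_surjective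
      have htrans : MulAction.IsPretransitive φ.range O := by
        refine ⟨fun x y => ?_⟩
        obtain ⟨g, hg⟩ := MulAction.exists_smul_eq N x y
        refine ⟨⟨φ g, ⟨g, rfl⟩⟩, ?_⟩
        exact hg
      letI : Fintype O := Fintype.ofFinite O
      have hR := hc φ.range O hRnil
      rw [← Nat.card_eq_fintype_card] at hR
      refine ⟨Nat.card O ::ₘ l', ?_, ?_, ?_⟩
      · intro m hm
        rcases Multiset.mem_cons.mp hm with rfl | hm
        · exact hOpos
        · exact hpos' m hm
      · rw [Multiset.sum_cons, hsum', hsum]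
      · rw [Multiset.map_cons, Multiset.prod_cons]
        have hcard : Nat.card N = Nat.card φ.range * Nat.card φ.ker := by
          rw [← Subgroup.index_ker, mul_comm, Subgroup.card_mul_index]
        rw [hcard]
        exact Nat.mul_le_mul hR hle'

theorem nil_exists_orbit_multiset (c : ℕ → ℕ)
    (hc : ∀ (N Ω : Type) [Group N] [Finite N] [Fintype Ω] [MulAction N Ω] [FaithfulSMul N Ω]
      [MulAction.IsPretransitive N Ω], Group.IsNilpotent N → Nat.card N ≤ c (Fintype.card Ω))
    {Ω : Type} [Fintype Ω] [DecidableEq Ω] (N : Subgroup (Equiv.Perm Ω)) (hN : Group.IsNilpotent N) :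
    ∃ l : Multiset ℕ, (∀ m ∈ l, 0 < m) ∧ l.sum = Fintype.card Ω ∧ Nat.card N ≤ (l.map c).prod := by
  have := nil_orbit_aux c hc (Fintype.card Ω) N Ω hN (Nat.card_eq_fintype_card)
  exact this

end Cfsg.Agent.Lead
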