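import Mathlib
import Cfsg.Agent.Lead.NilNum
import Cfsg.Agent.Lead.NilPP

set_option autoImplicit false

namespace Cfsg.Agent.Lead

theorem no_fact_odd (a : ℕ) (ha : Even a) :
    (a + 1).factorial.factorization 2 = a.factorial.factorization 2 := by
  rw [Nat.factorial_succ, Nat.factorization_mul (by omega) a.factorial_ne_zero]
  have : (a + 1).factorization 2 = 0 := by
    apply Nat.factorization_eq_zero_of_not_dvd
    obtain ⟨k, rfl⟩ := ha
    omega
  simp [this]

/-- carry lemma for two odd numbers -/
theorem no_carry (x y : ℕ) (hx : Odd x) (hy : Odd y) :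
    x.factorial.factorization 2 + y.factorial.factorization 2 + 1 ≤ (x + y).factorial.factorization 2 := by
  obtain ⟨i, rfl⟩ := hx
  obtain ⟨j, rfl⟩ := hy
  rw [no_fact_odd (2 * i) ⟨i, by ring⟩, no_fact_odd (2 * j) ⟨j, by ring⟩]
  have h1 := nn_v_add (2 * i) (2 * j)
  have h2 := nn_v2 (2 * i + 2 * j)
  rw [show 2 * i + 1 + (2 * j + 1) = 2 * i + 2 * j + 2 by ring]
  omega

theorem no_odd3 (x : ℕ) (hx : Odd x) :
    x.factorial.factorization 2 + 3 ≤ (x + 3).factorial.factorization 2 := by
  have hd : 8 * x.factorial ∣ (x + 3).factorial := by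
    rw [nn_fact3]
    apply Nat.mul_dvd_mul_right
    obtain ⟨j, rfl⟩ := hx
    rcases Nat.even_or_odd j with ⟨i, rfl⟩ | ⟨i, rfl⟩
    · exact ⟨(2 * i + 1) * (4 * i + 3) * (i + 1), by ring⟩
    · exact ⟨(i + 1) * (4 * i + 5) * (2 * i + 3), by ring⟩
  have := nn_v_of_dvd 8 x 3 (by norm_num) hd
  rw [nn_fz8] at this
  omega

theorem no_nine : 7 ≤ (9 : ℕ).factorial.factorization 2 := by
  have e1 : pw 2 (2 * 4) = pw 2 4 + 4 := pw_mul 2 Nat.prime_two 4
  have e2 : pw 2 (2 * 2) = pw 2 2 + 2 := pw_mul 2 Nat.prime_two 2
  have e3 : pw 2 (2 * 1) = pw 2 1 + 1 := pw_mul 2 Nat.prime_two 1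
  have e4 := pw_one 2
  have h9 : pw 2 8 ≤ pw 2 9 := pw_mono 2 (by norm_num)
  norm_num at e1 e2 e3
  show 7 ≤ pw 2 9
  omega

theorem nil_prod_odd_le (c : ℕ → ℕ)
    (hc : ∀ m, 0 < m → m ≠ 3 → c m ≤ 2 ^ (m.factorial.factorization 2)) (hc3 : c 3 = 3)
    (hc2 : ∀ m, Odd m → m ≠ 1 → m ≠ 3 → m ≠ 5 → m ≠ 9 → 2 * c m ≤ 2 ^ (m.factorial.factorization 2))
    (l : Multiset ℕ) (hodd : ∀ m ∈ l, Odd m) (h : l.sum % 4 ≠ 3) (h5 : l.sum ≠ 5) (h6 : l.sum ≠ 6)
    (h9 : l.sum ≠ 9) (h2 : 2 ≤ l.sum) :
    2 * (l.map c).prod ≤ 2 ^ (l.sum.factorial.factorization 2) := by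
  by_cases hall : ∀ m ∈ l, m = 3
  · have hl : l = Multiset.replicate (Multiset.card l) 3 := Multiset.eq_replicate_card.mpr hall
    have hsum : l.sum = 3 * Multiset.card l := by
      conv_lhs => rw [hl]
      simp [mul_comm]
    have hb : 3 ≤ Multiset.card l := by omega
    obtain ⟨b', hb'⟩ : ∃ b', Multiset.card l = b' + 3 := ⟨Multiset.card l - 3, by omega⟩
    rw [hb'] at hl hsum
    have key := nil_prod_le_of (fun m => if m = 9 then 54 else c m)
      (by
        intro m hm hm3
        by_cases h9' : m = 9
        · subst h9'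
          simp only [if_true]
          calc 54 ≤ 2 ^ 7 := by norm_num
            _ ≤ _ := Nat.pow_le_pow_right (by norm_num) no_nine
        · simp only [if_neg h9']
          exact hc m hm hm3)
      (by simp [hc3])
      (9 ::ₘ Multiset.replicate b' 3)
      (by
        intro m hm
        rcases Multiset.mem_cons.mp hm with rfl | hm
        · norm_num
        · rw [Multiset.eq_of_mem_replicate hm]; norm_num)
      (by
        rw [Multiset.sum_cons, Multiset.sum_replicate]
        have : 9 + b' • 3 = l.sum := by rw [hsum]; simp; ring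
        rw [this]; exact h)
    have hsum' : (9 ::ₘ Multiset.replicate b' 3).sum = l.sum := by
      rw [Multiset.sum_cons, Multiset.sum_replicate, hsum]; simp; ring
    rw [hsum'] at key
    have hprod : (Multiset.map (fun m => if m = 9 then 54 else c m) (9 ::ₘ Multiset.replicate b' 3)).prod
        = 2 * (l.map c).prod := by
      conv_rhs => rw [hl]
      simp [Multiset.map_replicate, Multiset.prod_replicate, hc3, pow_succ]
      ring
    rw [hprod] at key
    exact key
  · have hex : ∃ x ∈ l, x ≠ 3 := by
      by_contra hcon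
      exact hall (fun m hm => by_contra (fun hne => hcon ⟨m, hm, hne⟩))
    obtain ⟨x, hx, hx3⟩ := hex
    obtain ⟨l1, rfl⟩ := Multiset.exists_cons_of_mem hx
    rcases Multiset.empty_or_exists_mem l1 with rfl | ⟨y, hy⟩
    · simp only [Multiset.map_cons, Multiset.map_zero, Multiset.prod_cons, Multiset.prod_zero,
        mul_one, Multiset.sum_cons, Multiset.sum_zero, add_zero] at *
      exact hc2 x (hodd x (by simp)) (by omega) hx3 h5 h9
    · obtain ⟨l2, rfl⟩ := Multiset.exists_cons_of_mem hy
      have hxo : Odd x := hodd x (by simp)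
      have hyo : Odd y := hodd y (by simp)
      have hl2 : ∀ m ∈ l2, Odd m := fun m hm => hodd m (by simp [hm])
      have hxpos : 0 < x := hxo.pos
      have hypos : 0 < y := hyo.pos
      have hxy3 : x + y ≠ 3 := by
        intro h3
        have : Even (x + y) := Odd.add_odd hxo hyo
        rw [h3] at this
        exact absurd this (by decide)
      have hpair : 2 * c x * c y ≤ 2 ^ ((x + y).factorial.factorization 2) := by
        have hcx := hc x hxpos hx3
        by_cases hy3 : y = 3
        · subst hy3
          rw [hc3]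
          have h3 := no_odd3 x hxo
          calc 2 * c x * 3 = 6 * c x := by ring
            _ ≤ 8 * 2 ^ (x.factorial.factorization 2) := Nat.mul_le_mul (by norm_num) hcx
            _ = 2 ^ (x.factorial.factorization 2 + 3) := by ring
            _ ≤ _ := Nat.pow_le_pow_right (by norm_num) h3
        · have hcy := hc y hypos hy3
          have hcar := no_carry x y hxo hyo
          calc 2 * c x * c y ≤ 2 * 2 ^ (x.factorial.factorization 2) * 2 ^ (y.factorial.factorization 2) :=
                Nat.mul_le_mul (Nat.mul_le_mul_left _ hcx) hcy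
            _ = 2 ^ (x.factorial.factorization 2 + y.factorial.factorization 2 + 1) := by ring
            _ ≤ _ := Nat.pow_le_pow_right (by norm_num) hcar
      have key := nil_prod_le_of (fun m => if m = x + y then 2 * c x * c y else c m)
        (by
          intro m hm hm3
          by_cases hmxy : m = x + y
          · subst hmxy
            simp only [if_true]
            exact hpair
          · simp only [if_neg hmxy]
            exact hc m hm hm3)
        (by
          have : (3 : ℕ) ≠ x + y := fun h3 => hxy3 h3.symm
          simp only [if_neg this]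
          exact hc3)
        ((x + y) ::ₘ l2)
        (by
          intro m hm
          rcases Multiset.mem_cons.mp hm with rfl | hm
          · omega
          · exact (hl2 m hm).pos)
        (by
          have : ((x + y) ::ₘ l2).sum = (x ::ₘ y ::ₘ l2).sum := by
            simp only [Multiset.sum_cons]; ring
          rw [this]; exact h)
      have hsum' : ((x + y) ::ₘ l2).sum = (x ::ₘ y ::ₘ l2).sum := by
        simp only [Multiset.sum_cons]; ring
      rw [hsum'] at key
      have hmap : Multiset.map (fun m => if m = x + y then 2 * c x * c y else c m) l2 = Multiset.map c l2 := by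
        apply Multiset.map_congr rfl
        intro m hm
        have hmo := hl2 m hm
        have : m ≠ x + y := by
          intro hmeq
          have : Even (x + y) := Odd.add_odd hxo hyo
          rw [← hmeq] at this
          exact (Nat.not_even_iff_odd.mpr hmo) this
        simp only [if_neg this]
      have hprod : (Multiset.map (fun m => if m = x + y then 2 * c x * c y else c m) ((x + y) ::ₘ l2)).prod
          = 2 * (Multiset.map c (x ::ₘ y ::ₘ l2)).prod := by
        rw [Multiset.map_cons, Multiset.prod_cons, hmap]
        simp only [if_true, Multiset.map_cons, Multiset.prod_cons]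
        ring
      rw [hprod] at key
      exact key

end Cfsg.Agent.Lead
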