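import Mathlib
import Cfsg.Agent.Helper4.Wielandt
import Cfsg.Agent.Helper4.Subnormal

/-!
Wielandt: for subnormal subgroups `A₁, A₂` of a finite group and a Sylow `p`-subgroup `S`,
`(A₁ ⊔ A₂) ⊓ S = (A₁ ⊓ S) ⊔ (A₂ ⊓ S)`.
-/

set_option autoImplicit false

namespace Cfsg.Agent.Lead

universe u

open scoped Pointwise

section wielandt

variable {G : Type u} [Group G]

/-- The subgroup of `B` generated by its `p'`-elements. -/
def opGen (p : ℕ) (B : Subgroup G) : Subgroup G :=
  Subgroup.closure {x : G | x ∈ B ∧ (orderOf x).Coprime p}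

theorem opGen_le (p : ℕ) (B : Subgroup G) : opGen p B ≤ B :=
  (Subgroup.closure_le _).mpr (fun _ hx => hx.1)

theorem coprime_orderOf_conj {p : ℕ} {y : G} (t : G) (hy : (orderOf y).Coprime p) :
    (orderOf (t * y * t⁻¹)).Coprime p := by
  have hd : orderOf (t * y * t⁻¹) ∣ orderOf y := by
    apply orderOf_dvd_of_pow_eq_one
    rw [conj_pow, pow_orderOf_eq_one]; group
  exact Nat.Coprime.coprime_dvd_left hd hy

theorem opGen_conj_le (p : ℕ) (B : Subgroup G) {b : G} (hb : b ∈ B) :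
    (opGen p B).map (MulAut.conj b).toMonoidHom ≤ opGen p B := by
  rw [Subgroup.map_le_iff_le_comap]
  unfold opGen
  rw [Subgroup.closure_le]
  intro y hy
  rw [SetLike.mem_coe, Subgroup.mem_comap]
  apply Subgroup.subset_closure
  show b * y * b⁻¹ ∈ B ∧ (orderOf (b * y * b⁻¹)).Coprime p
  exact ⟨B.mul_mem (B.mul_mem hb hy.1) (B.inv_mem hb), coprime_orderOf_conj b hy.2⟩

theorem opGen_normal_subgroupOf (p : ℕ) (B : Subgroup G) :
    ((opGen p B).subgroupOf B).Normal := by
  constructor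
  intro n hn g
  rw [Subgroup.mem_subgroupOf] at hn ⊢
  have h := opGen_conj_le p B g.2
  have h2 : (MulAut.conj (g : G)).toMonoidHom (n : G) ∈ opGen p B :=
    h (Subgroup.mem_map_of_mem _ hn)
  exact h2

theorem opGen_isSubnormal (p : ℕ) {B : Subgroup G} (hB : B.IsSubnormal) :
    (opGen p B).IsSubnormal :=
  Subgroup.IsSubnormal.step _ _ (opGen_le p B) hB (opGen_normal_subgroupOf p B)

theorem le_opGen_sup [Finite G] {p : ℕ} [hp : Fact p.Prime] (S : Sylow p G) {B : Subgroup G}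
    (hB : B.IsSubnormal) : B ≤ opGen p B ⊔ (B ⊓ (S : Subgroup G)) := by
  rw [← Subgroup.relIndex_eq_one]
  have h1 : ¬ p ∣ (opGen p B ⊔ (B ⊓ (S : Subgroup G))).relIndex B := by
    intro hdiv
    have h2 : (opGen p B ⊔ (B ⊓ (S : Subgroup G))).relIndex B ∣
        (B ⊓ (S : Subgroup G)).relIndex B :=
      Subgroup.relIndex_dvd_of_le_left B le_sup_right
    rw [Subgroup.inf_relIndex_left] at h2
    exact Cfsg.Agent.Helper4.sylow_not_dvd_relIndex_of_isSubnormal p S B hB (hdiv.trans h2)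
  have := opGen_normal_subgroupOf p B
  have hpg : IsPGroup p (↥B ⧸ (opGen p B).subgroupOf B) := by
    intro g
    obtain ⟨b, rfl⟩ := QuotientGroup.mk_surjective g
    obtain ⟨k, r, hr, hkr⟩ :=
      Nat.exists_eq_pow_mul_and_not_dvd (orderOf_pos (b : G)).ne' p hp.1.ne_one
    refine ⟨k, ?_⟩
    rw [← QuotientGroup.mk_pow, QuotientGroup.eq_one_iff, Subgroup.mem_subgroupOf]
    apply Subgroup.subset_closure
    show ((b : G) ^ p ^ k) ∈ B ∧ (orderOf ((b : G) ^ p ^ k)).Coprime p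
    refine ⟨B.pow_mem b.2 _, ?_⟩
    have hd : orderOf ((b : G) ^ p ^ k) ∣ r := by
      apply orderOf_dvd_of_pow_eq_one
      rw [← pow_mul, ← hkr, pow_orderOf_eq_one]
    exact Nat.Coprime.coprime_dvd_left hd ((Nat.Prime.coprime_iff_not_dvd hp.1).mpr hr).symm
  obtain ⟨k, hk⟩ := IsPGroup.iff_card.mp hpg
  have h3 : (opGen p B ⊔ (B ⊓ (S : Subgroup G))).relIndex B ∣ p ^ k := by
    have h4 : (opGen p B ⊔ (B ⊓ (S : Subgroup G))).relIndex B ∣ (opGen p B).relIndex B :=
      Subgroup.relIndex_dvd_of_le_left B le_sup_left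
    have h5 : (opGen p B).relIndex B = p ^ k := by
      rw [Subgroup.relIndex, Subgroup.index_eq_card, hk]
    rwa [h5] at h4
  obtain ⟨j, -, hj⟩ := (Nat.dvd_prime_pow hp.1).mp h3
  rcases Nat.eq_zero_or_pos j with h0 | hpos
  · rw [hj, h0, pow_zero]
  · exfalso; apply h1; rw [hj]; exact dvd_pow_self p hpos.ne'

theorem card_inf_sylow [Finite G] {p : ℕ} [Fact p.Prime] (S : Sylow p G) {X : Subgroup G}
    (hX : X.IsSubnormal) :
    Nat.card (X ⊓ (S : Subgroup G) : Subgroup G) = p ^ (Nat.card X).factorization p := by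
  obtain ⟨Q, hQ⟩ := Cfsg.Agent.Helper4.exists_sylow_subgroupOf_of_isSubnormal p S X hX
  have h1 : Nat.card Q = p ^ (Nat.card X).factorization p := Q.card_eq_multiplicity
  have h2 : (Q : Subgroup X) = (X ⊓ (S : Subgroup G)).subgroupOf X := by
    rw [hQ, ← Subgroup.inf_subgroupOf_right (S : Subgroup G) X, inf_comm]
  have e := Subgroup.subgroupOfEquivOfLe (inf_le_left : X ⊓ (S : Subgroup G) ≤ X)
  have h3 : Nat.card ((X ⊓ (S : Subgroup G)).subgroupOf X) =
      Nat.card (X ⊓ (S : Subgroup G) : Subgroup G) := Nat.card_congr e.toEquiv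
  have h4 : Nat.card (Q : Subgroup X) = Nat.card ((X ⊓ (S : Subgroup G)).subgroupOf X) := by
    rw [h2]
  have h5 : Nat.card Q = Nat.card (Q : Subgroup X) := rfl
  exact h3.symm.trans (h4.symm.trans (h5.symm.trans h1))

/-- The case of one normal subgroup, by counting. -/
theorem inf_sup_normal_le [Finite G] {p : ℕ} [hp : Fact p.Prime] (S : Sylow p G)
    {D M : Subgroup G} (hD : D.IsSubnormal) (hM : M.Normal) :
    (D ⊔ M) ⊓ (S : Subgroup G) ≤ (D ⊓ (S : Subgroup G)) ⊔ (M ⊓ (S : Subgroup G)) := by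
  have hMs : M.IsSubnormal := hM.isSubnormal
  have hDM : (D ⊔ M).IsSubnormal := Cfsg.Agent.Helper4.isSubnormal_sup D M hD hMs
  have hDiM : (D ⊓ M).IsSubnormal := hD.inf hMs
  have c1 := card_inf_sylow S hD
  have c2 := card_inf_sylow S hMs
  have c3 := card_inf_sylow S hDM
  have c4 := card_inf_sylow S hDiM
  have e1 : Nat.card (D ⊔ M : Subgroup G) * Nat.card (D ⊓ M : Subgroup G) =
      Nat.card D * Nat.card M :=
    Cfsg.Agent.Helper4.card_sup_mul_card_inf D M
      (by rw [Subgroup.normalizer_eq_top_iff.mpr hM]; exact le_top)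
  have hnorm : D ⊓ (S : Subgroup G) ≤
      Subgroup.normalizer ((M ⊓ (S : Subgroup G) : Subgroup G) : Set G) := by
    intro x hx
    have hxS : x ∈ (S : Subgroup G) := (Subgroup.mem_inf.mp hx).2
    apply Subgroup.mem_normalizer_fintype
    intro h hh
    obtain ⟨h1, h2⟩ := Subgroup.mem_inf.mp hh
    exact Subgroup.mem_inf.mpr ⟨hM.conj_mem h h1 x,
      Subgroup.mul_mem _ (Subgroup.mul_mem _ hxS h2) (Subgroup.inv_mem _ hxS)⟩
  have e2 := Cfsg.Agent.Helper4.card_sup_mul_card_inf (D ⊓ (S : Subgroup G))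
    (M ⊓ (S : Subgroup G)) hnorm
  have e3 : (D ⊓ (S : Subgroup G)) ⊓ (M ⊓ (S : Subgroup G)) = (D ⊓ M) ⊓ (S : Subgroup G) :=
    (inf_inf_distrib_right D M (S : Subgroup G)).symm
  rw [e3, c1, c2, c4] at e2
  have e4 : (Nat.card (D ⊔ M : Subgroup G)).factorization p +
      (Nat.card (D ⊓ M : Subgroup G)).factorization p =
      (Nat.card D).factorization p + (Nat.card M).factorization p := by
    have h := congrArg Nat.factorization e1
    rw [Nat.factorization_mul Nat.card_pos.ne' Nat.card_pos.ne',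
      Nat.factorization_mul Nat.card_pos.ne' Nat.card_pos.ne'] at h
    have h' := DFunLike.congr_fun h p
    simpa [Finsupp.add_apply] using h'
  have hle : (D ⊓ (S : Subgroup G)) ⊔ (M ⊓ (S : Subgroup G)) ≤ (D ⊔ M) ⊓ (S : Subgroup G) :=
    sup_le (inf_le_inf_right _ le_sup_left) (inf_le_inf_right _ le_sup_right)
  have hcard : Nat.card ((D ⊔ M) ⊓ (S : Subgroup G) : Subgroup G) ≤
      Nat.card ((D ⊓ (S : Subgroup G)) ⊔ (M ⊓ (S : Subgroup G)) : Subgroup G) := by
    rw [c3]
    have hpos : 0 < p ^ (Nat.card (D ⊓ M : Subgroup G)).factorization p := pow_pos hp.1.pos _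
    have key : Nat.card ((D ⊓ (S : Subgroup G)) ⊔ (M ⊓ (S : Subgroup G)) : Subgroup G) *
        p ^ (Nat.card (D ⊓ M : Subgroup G)).factorization p =
        p ^ (Nat.card (D ⊔ M : Subgroup G)).factorization p *
          p ^ (Nat.card (D ⊓ M : Subgroup G)).factorization p := by
      rw [e2, ← pow_add, ← pow_add, e4]
    exact (Nat.eq_of_mul_eq_mul_right hpos key).ge
  exact (Subgroup.eq_of_le_of_card_ge hle hcard).ge

theorem conj_eq_of_comm' {g c : G} (h : g * c = c * g) : g⁻¹ * c * g = c := by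
  rw [mul_assoc, ← h, inv_mul_cancel_left]

theorem comm_central {a b z₁ z₂ : G} (h1 : ∀ g : G, g * z₁ = z₁ * g)
    (h2 : ∀ g : G, g * z₂ = z₂ * g) :
    (a * z₁) * (b * z₂) * (a * z₁)⁻¹ * (b * z₂)⁻¹ = a * b * a⁻¹ * b⁻¹ := by
  have k1 : ∀ x : G, z₁ * x * z₁⁻¹ = x := fun x => by rw [← h1 x]; group
  have k2 : ∀ x : G, z₂ * x * z₂⁻¹ = x := fun x => by rw [← h2 x]; group
  calc (a * z₁) * (b * z₂) * (a * z₁)⁻¹ * (b * z₂)⁻¹
      = a * (z₁ * (b * z₂) * z₁⁻¹) * a⁻¹ * (b * z₂)⁻¹ := by group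
    _ = a * (b * z₂) * a⁻¹ * (b * z₂)⁻¹ := by rw [k1]
    _ = a * b * (z₂ * a⁻¹ * z₂⁻¹) * b⁻¹ := by group
    _ = a * b * a⁻¹ * b⁻¹ := by rw [k2]

/-- Transfer: if `G` is generated by `p'`-elements, a central element has its `|G:S|`-th power
in any subgroup containing the commutators of `S`. -/
theorem central_pow_mem [Finite G] {p : ℕ} [Fact p.Prime] (S : Sylow p G)
    (hgen : Subgroup.closure {x : G | (orderOf x).Coprime p} = ⊤) (U : Subgroup G)
    (hU : ∀ a ∈ (S : Subgroup G), ∀ b ∈ (S : Subgroup G), a * b * a⁻¹ * b⁻¹ ∈ U)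
    {m : G} (hm : m ∈ Subgroup.center G) : m ^ (S : Subgroup G).index ∈ U := by
  let φ : (S : Subgroup G) →* Abelianization (S : Subgroup G) := Abelianization.of
  have hpA : IsPGroup p (Abelianization (S : Subgroup G)) := S.isPGroup'.to_quotient _
  have htriv : ∀ x : G, MonoidHom.transfer φ x = 1 := by
    have hker : Subgroup.closure {x : G | (orderOf x).Coprime p} ≤ (MonoidHom.transfer φ).ker := by
      rw [Subgroup.closure_le]
      intro x hx
      rw [SetLike.mem_coe, MonoidHom.mem_ker]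
      obtain ⟨k, hk⟩ := hpA (MonoidHom.transfer φ x)
      have h1 : orderOf (MonoidHom.transfer φ x) ∣ p ^ k := orderOf_dvd_of_pow_eq_one hk
      have h2 : orderOf (MonoidHom.transfer φ x) ∣ orderOf x := orderOf_map_dvd _ x
      have h3 : (orderOf x).Coprime (p ^ k) := Nat.Coprime.pow_right k hx
      have h4 : orderOf (MonoidHom.transfer φ x) = 1 := Nat.eq_one_of_dvd_coprimes h3 h2 h1
      exact orderOf_eq_one_iff.mp h4
    intro x
    have : x ∈ (MonoidHom.transfer φ).ker := hker (by rw [hgen]; exact Subgroup.mem_top x)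
    exact MonoidHom.mem_ker.mp this
  have key : ∀ (k : ℕ) (g₀ : G), g₀⁻¹ * m ^ k * g₀ ∈ (S : Subgroup G) →
      g₀⁻¹ * m ^ k * g₀ = m ^ k := by
    intro k g₀ _
    have hc : m ^ k ∈ Subgroup.center G := Subgroup.pow_mem _ hm k
    exact conj_eq_of_comm' (Subgroup.mem_center_iff.mp hc g₀)
  have h5 := MonoidHom.transfer_eq_pow φ m key
  rw [htriv m] at h5
  have h6 : (⟨m ^ (S : Subgroup G).index, MonoidHom.transfer_eq_pow_aux m key⟩ :
      (S : Subgroup G)) ∈ commutator (S : Subgroup G) := by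
    rw [← Abelianization.ker_of, MonoidHom.mem_ker]; exact h5.symm
  have h7 : commutator (S : Subgroup G) ≤ U.subgroupOf (S : Subgroup G) := by
    rw [commutator_def, Subgroup.commutator_le]
    intro a _ b _
    rw [Subgroup.mem_subgroupOf]
    have := hU a a.2 b b.2
    simpa [commutatorElement_def] using this
  exact Subgroup.mem_subgroupOf.mp (h7 h6)

theorem mem_of_pow_index_mem [Finite G] {p : ℕ} [hp : Fact p.Prime] (S : Sylow p G)
    (U : Subgroup G) {m : G} (hmS : m ∈ (S : Subgroup G))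
    (hpow : m ^ (S : Subgroup G).index ∈ U) : m ∈ U := by
  obtain ⟨j, hj⟩ := S.isPGroup' ⟨m, hmS⟩
  have hj' : m ^ p ^ j = 1 := by
    have := congrArg Subtype.val hj
    simpa using this
  have hcop : ((S : Subgroup G).index).Coprime (orderOf m) := by
    have h1 : (orderOf m) ∣ p ^ j := orderOf_dvd_of_pow_eq_one hj'
    have h2 : (p ^ j).Coprime (S : Subgroup G).index :=
      Nat.Coprime.pow_left j ((Nat.Prime.coprime_iff_not_dvd hp.1).mpr S.not_dvd_index)
    exact (Nat.Coprime.coprime_dvd_left h1 h2).symm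
  obtain ⟨k, hk⟩ := exists_pow_eq_self_of_coprime hcop
  rw [← hk]; exact U.pow_mem hpow k

end wielandt

end Cfsg.Agent.Lead
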