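import Mathlib
import Cfsg.Agent.Lead.Wielandt

/-!
Wielandt's theorem on Sylow subgroups of joins of subnormal subgroups: the induction.
-/

set_option autoImplicit false

namespace Cfsg.Agent.Lead

universe u

open scoped Pointwise

theorem wielandt_aux (p : ℕ) [hp : Fact p.Prime] : ∀ (n : ℕ) (G : Type u) [Group G] [Finite G],
    Nat.card G = n → ∀ (S : Sylow p G) (𝓑 : Set (Subgroup G)), (∀ B ∈ 𝓑, B.IsSubnormal) →
      sSup 𝓑 ⊓ (S : Subgroup G) ≤ ⨆ B ∈ 𝓑, B ⊓ (S : Subgroup G) := by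
  intro n
  induction n using Nat.strong_induction_on with
  | _ n ih =>
  intro G _ _ hn S 𝓑 h𝓑
  -- the induction hypothesis, relative to a subnormal subgroup
  have rel : ∀ (H : Subgroup G), H.IsSubnormal → Nat.card H < n → ∀ 𝓒 : Set (Subgroup G),
      (∀ C ∈ 𝓒, C.IsSubnormal ∧ C ≤ H) →
      sSup 𝓒 ⊓ (S : Subgroup G) ≤ ⨆ C ∈ 𝓒, C ⊓ (S : Subgroup G) := by
    intro H hH hlt 𝓒 h𝓒
    obtain ⟨Q, hQ⟩ := Cfsg.Agent.Helper4.exists_sylow_subgroupOf_of_isSubnormal p S H hH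
    have key := ih _ hlt ↥H rfl Q ((fun C : Subgroup G => C.subgroupOf H) '' 𝓒) (by
      rintro _ ⟨C, hC, rfl⟩
      exact (h𝓒 C hC).1.subgroupOf)
    intro x hx
    obtain ⟨hx1, hx2⟩ := Subgroup.mem_inf.mp hx
    have hle1 : sSup 𝓒 ≤ (sSup ((fun C : Subgroup G => C.subgroupOf H) '' 𝓒)).map H.subtype := by
      apply sSup_le
      intro C hC
      have h1 : (C.subgroupOf H).map H.subtype = C :=
        Subgroup.map_subgroupOf_eq_of_le (h𝓒 C hC).2
      exact le_of_eq_of_le h1.symm (Subgroup.map_mono (le_sSup ⟨C, hC, rfl⟩))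
    obtain ⟨x', hx', hxeq⟩ := Subgroup.mem_map.mp (hle1 hx1)
    have hxeq' : (x' : G) = x := hxeq
    have hx'Q : x' ∈ (Q : Subgroup H) := by
      rw [hQ, Subgroup.mem_subgroupOf, hxeq']; exact hx2
    have h2 := key (Subgroup.mem_inf.mpr ⟨hx', hx'Q⟩)
    have hle2 : (⨆ D ∈ ((fun C : Subgroup G => C.subgroupOf H) '' 𝓒), D ⊓ (Q : Subgroup H)) ≤
        (⨆ C ∈ 𝓒, C ⊓ (S : Subgroup G)).comap H.subtype := by
      apply iSup₂_le
      rintro _ ⟨C, hC, rfl⟩
      intro y hy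
      obtain ⟨hy1, hy2⟩ := Subgroup.mem_inf.mp hy
      rw [Subgroup.mem_comap]
      have hyS : (y : G) ∈ (S : Subgroup G) := by
        rw [hQ] at hy2; exact Subgroup.mem_subgroupOf.mp hy2
      have hyC : (y : G) ∈ C := Subgroup.mem_subgroupOf.mp hy1
      exact (le_iSup₂ (f := fun C (_ : C ∈ 𝓒) => C ⊓ (S : Subgroup G)) C hC)
        (Subgroup.mem_inf.mpr ⟨hyC, hyS⟩)
    have h3 := hle2 h2
    rw [Subgroup.mem_comap] at h3
    have h4 : (H.subtype x') = x := hxeq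
    rw [h4] at h3
    exact h3
  have hJsub : (sSup 𝓑).IsSubnormal := Cfsg.Agent.Helper4.isSubnormal_sSup 𝓑 h𝓑
  by_cases hJ : sSup 𝓑 = ⊤
  swap
  · have hlt : Nat.card (sSup 𝓑 : Subgroup G) < n := by
      rw [← hn]
      exact lt_of_le_of_ne (Subgroup.card_le_card_group _)
        (fun h => hJ (Subgroup.eq_top_of_card_eq _ h))
    exact rel _ hJsub hlt 𝓑 (fun B hB => ⟨h𝓑 B hB, le_sSup hB⟩)
  -- now `sSup 𝓑 = ⊤`
  obtain ⟨T, hT⟩ : ∃ T : Subgroup G, T = ⨆ B ∈ 𝓑, B ⊓ (S : Subgroup G) := ⟨_, rfl⟩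
  rw [← hT]
  have hTS : T ≤ (S : Subgroup G) := by
    rw [hT]; exact iSup₂_le (fun B _ => inf_le_right)
  have hBT : ∀ B ∈ 𝓑, B ⊓ (S : Subgroup G) ≤ T := by
    intro B hB
    rw [hT]
    exact le_iSup₂ (f := fun B (_ : B ∈ 𝓑) => B ⊓ (S : Subgroup G)) B hB
  -- the family of `T`-conjugates of the `O^p(B)`
  obtain ⟨𝓡, h𝓡def⟩ : ∃ 𝓡 : Set (Subgroup G), ∀ D, D ∈ 𝓡 ↔
      ∃ B ∈ 𝓑, ∃ t ∈ T, D = (opGen p B).map (MulAut.conj t).toMonoidHom :=
    ⟨{D | ∃ B ∈ 𝓑, ∃ t ∈ T, D = (opGen p B).map (MulAut.conj t).toMonoidHom}, fun D => Iff.rfl⟩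
  have h𝓡sub : ∀ D ∈ 𝓡, D.IsSubnormal := by
    intro D hD
    obtain ⟨B, hB, t, -, rfl⟩ := (h𝓡def D).mp hD
    exact (opGen_isSubnormal p (h𝓑 B hB)).map (MulAut.conj t).surjective
  have h𝓡T : ∀ D ∈ 𝓡, D ⊓ (S : Subgroup G) ≤ T := by
    intro D hD x hx
    obtain ⟨B, hB, t, ht, rfl⟩ := (h𝓡def D).mp hD
    obtain ⟨hx1, hx2⟩ := Subgroup.mem_inf.mp hx
    obtain ⟨y, hy, rfl⟩ := Subgroup.mem_map.mp hx1
    have hyB : y ∈ B := opGen_le p B hy
    have htS : t ∈ (S : Subgroup G) := hTS ht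
    have hx2' : t * y * t⁻¹ ∈ (S : Subgroup G) := hx2
    have hyS : y ∈ (S : Subgroup G) := by
      have e : y = t⁻¹ * (t * y * t⁻¹) * t := by group
      rw [e]
      exact Subgroup.mul_mem _ (Subgroup.mul_mem _ (Subgroup.inv_mem _ htS) hx2') htS
    have hyT : y ∈ T := hBT B hB (Subgroup.mem_inf.mpr ⟨hyB, hyS⟩)
    show t * y * t⁻¹ ∈ T
    exact T.mul_mem (T.mul_mem ht hyT) (T.inv_mem ht)
  obtain ⟨R, hR⟩ : ∃ R : Subgroup G, R = sSup 𝓡 := ⟨_, rfl⟩
  have hRsub : R.IsSubnormal := by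
    rw [hR]; exact Cfsg.Agent.Helper4.isSubnormal_sSup 𝓡 h𝓡sub
  -- `T` normalises `R`
  have hTR : T ≤ Subgroup.normalizer (R : Set G) := by
    intro t ht
    apply Subgroup.mem_normalizer_fintype
    intro r hr
    have hle : R ≤ R.comap (MulAut.conj t).toMonoidHom := by
      rw [hR]
      apply sSup_le
      intro D hD
      obtain ⟨B, hB, t₀, ht₀, rfl⟩ := (h𝓡def D).mp hD
      rw [← Subgroup.map_le_iff_le_comap]
      apply le_sSup
      refine (h𝓡def _).mpr ⟨B, hB, t * t₀, T.mul_mem ht ht₀, ?_⟩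
      rw [Subgroup.map_map]
      congr 1
      ext z
      show t * (t₀ * z * t₀⁻¹) * t⁻¹ = (t * t₀) * z * (t * t₀)⁻¹
      group
    exact hle hr
  -- every member of `𝓑` lies in `R ⊔ T`
  have hBRT : ∀ B ∈ 𝓑, B ≤ R ⊔ T := by
    intro B hB
    refine (le_opGen_sup S (h𝓑 B hB)).trans (sup_le_sup ?_ (hBT B hB))
    have hmem : (opGen p B).map (MulAut.conj (1 : G)).toMonoidHom ∈ 𝓡 :=
      (h𝓡def _).mpr ⟨B, hB, 1, T.one_mem, rfl⟩
    intro y hy
    have h1 : y ∈ (opGen p B).map (MulAut.conj (1 : G)).toMonoidHom := by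
      refine Subgroup.mem_map.mpr ⟨y, hy, ?_⟩
      show 1 * y * 1⁻¹ = y
      group
    rw [hR]
    exact (le_sSup hmem) h1
  -- it suffices to show `R ⊓ S ≤ T`
  have hsuff : R ⊓ (S : Subgroup G) ≤ T → sSup 𝓑 ⊓ (S : Subgroup G) ≤ T := by
    intro hRS x hx
    have hxS : x ∈ (S : Subgroup G) := (Subgroup.mem_inf.mp hx).2
    have hx' : x ∈ R ⊔ T := (sSup_le hBRT) (Subgroup.mem_inf.mp hx).1
    have hcoe : (↑(R ⊔ T) : Set G) = (R : Set G) * (T : Set G) :=
      Subgroup.coe_mul_of_right_le_normalizer_left R T hTR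
    have hx'' : x ∈ (R : Set G) * (T : Set G) := by rw [← hcoe]; exact hx'
    obtain ⟨r, hr, t, ht, rfl⟩ := Set.mem_mul.mp hx''
    have hrS : r ∈ (S : Subgroup G) := by
      have e : r = (r * t) * t⁻¹ := by group
      rw [e]; exact Subgroup.mul_mem _ hxS (Subgroup.inv_mem _ (hTS ht))
    exact T.mul_mem (hRS (Subgroup.mem_inf.mpr ⟨hr, hrS⟩)) ht
  apply hsuff
  by_cases hRtop : R = ⊤
  swap
  · have hlt : Nat.card R < n := by
      rw [← hn]
      exact lt_of_le_of_ne (Subgroup.card_le_card_group _)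
        (fun h => hRtop (Subgroup.eq_top_of_card_eq _ h))
    have h1 := rel R hRsub hlt 𝓡 (fun D hD => ⟨h𝓡sub D hD, by rw [hR]; exact le_sSup hD⟩)
    rw [← hR] at h1
    exact h1.trans (iSup₂_le h𝓡T)
  -- Step B: `G = R` is generated by `p'`-elements
  have hgen : Subgroup.closure {x : G | (orderOf x).Coprime p} = ⊤ := by
    rw [eq_top_iff, ← hRtop, hR]
    apply sSup_le
    intro D hD
    obtain ⟨B, hB, t, ht, rfl⟩ := (h𝓡def D).mp hD
    rw [Subgroup.map_le_iff_le_comap]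
    unfold opGen
    rw [Subgroup.closure_le]
    intro y hy
    rw [SetLike.mem_coe, Subgroup.mem_comap]
    apply Subgroup.subset_closure
    show (orderOf (t * y * t⁻¹)).Coprime p
    exact coprime_orderOf_conj t hy.2
  rcases subsingleton_or_nontrivial G with hsub | hnt
  · intro x _
    rw [Subsingleton.elim x 1]; exact T.one_mem
  obtain ⟨M, hM⟩ := exists_minimal_of_wellFoundedLT
    (fun K : Subgroup G => K.Normal ∧ K ≠ ⊥) ⟨⊤, Subgroup.normal_top, top_ne_bot⟩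
  obtain ⟨hMn, hMne⟩ := hM.prop
  have hMmin : ∀ K : Subgroup G, K.Normal → K ≤ M → K = ⊥ ∨ K = M := by
    intro K hKn hKle
    by_cases hK : K = ⊥
    · exact Or.inl hK
    · exact Or.inr (le_antisymm hKle (hM.le_of_le ⟨hKn, hK⟩ hKle))
  have hMn' := hMn
  -- the quotient step: `S ≤ T ⊔ M`
  have hSTM : (S : Subgroup G) ≤ T ⊔ M := by
    have hlt : Nat.card (G ⧸ M) < n := by
      rw [← hn]; exact Cfsg.Agent.Helper1.card_quotient_lt_of_ne_bot M hMne
    have hsurj : Function.Surjective (QuotientGroup.mk' M) := QuotientGroup.mk'_surjective M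
    have key := ih _ hlt (G ⧸ M) rfl (S.mapSurjective hsurj)
      ((fun D : Subgroup G => D.map (QuotientGroup.mk' M)) '' 𝓡) (by
        rintro _ ⟨D, hD, rfl⟩
        exact (h𝓡sub D hD).map hsurj)
    have hle1 : (⨆ E ∈ ((fun D : Subgroup G => D.map (QuotientGroup.mk' M)) '' 𝓡),
        E ⊓ ((S.mapSurjective hsurj : Sylow p (G ⧸ M)) : Subgroup (G ⧸ M))) ≤
        (T ⊔ M).map (QuotientGroup.mk' M) := by
      apply iSup₂_le
      rintro _ ⟨D, hD, rfl⟩
      intro z hz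
      obtain ⟨hz1, hz2⟩ := Subgroup.mem_inf.mp hz
      obtain ⟨d, hd, hdz⟩ := Subgroup.mem_map.mp hz1
      have hz2' : z ∈ (S : Subgroup G).map (QuotientGroup.mk' M) := hz2
      obtain ⟨s, hs, hsz⟩ := Subgroup.mem_map.mp hz2'
      have hds : d⁻¹ * s ∈ M := by
        rw [← QuotientGroup.eq_one_iff, QuotientGroup.mk_mul, QuotientGroup.mk_inv]
        have h1 : (QuotientGroup.mk d : G ⧸ M) = z := hdz
        have h2 : (QuotientGroup.mk s : G ⧸ M) = z := hsz
        rw [h1, h2, inv_mul_cancel]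
      have hsDM : s ∈ D ⊔ M := by
        have e : s = d * (d⁻¹ * s) := by group
        rw [e]
        exact Subgroup.mul_mem _ (Subgroup.mem_sup_left hd) (Subgroup.mem_sup_right hds)
      have h3 := inf_sup_normal_le S (h𝓡sub D hD) hMn (Subgroup.mem_inf.mpr ⟨hsDM, hs⟩)
      have h4 : (D ⊓ (S : Subgroup G)) ⊔ (M ⊓ (S : Subgroup G)) ≤ T ⊔ M :=
        sup_le_sup (h𝓡T D hD) inf_le_left
      rw [← hsz]
      exact Subgroup.mem_map_of_mem _ (h4 h3)
    intro s hs
    have hπs : (QuotientGroup.mk' M) s ∈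
        sSup ((fun D : Subgroup G => D.map (QuotientGroup.mk' M)) '' 𝓡) := by
      have hle : (sSup 𝓡).map (QuotientGroup.mk' M) ≤
          sSup ((fun D : Subgroup G => D.map (QuotientGroup.mk' M)) '' 𝓡) := by
        rw [Subgroup.map_le_iff_le_comap]
        apply sSup_le
        intro D hD
        rw [← Subgroup.map_le_iff_le_comap]
        exact le_sSup ⟨D, hD, rfl⟩
      apply hle
      apply Subgroup.mem_map_of_mem
      rw [← hR, hRtop]; exact Subgroup.mem_top s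
    have hπsS : (QuotientGroup.mk' M) s ∈
        ((S.mapSurjective hsurj : Sylow p (G ⧸ M)) : Subgroup (G ⧸ M)) :=
      Subgroup.mem_map_of_mem _ hs
    have h5 := hle1 (key (Subgroup.mem_inf.mpr ⟨hπs, hπsS⟩))
    obtain ⟨y, hy, hys⟩ := Subgroup.mem_map.mp h5
    have hys' : y⁻¹ * s ∈ M := by
      rw [← QuotientGroup.eq_one_iff, QuotientGroup.mk_mul, QuotientGroup.mk_inv]
      have h1 : (QuotientGroup.mk y : G ⧸ M) = QuotientGroup.mk s := hys
      rw [h1, inv_mul_cancel]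
    have e : s = y * (y⁻¹ * s) := by group
    rw [e]
    exact Subgroup.mul_mem _ hy (Subgroup.mem_sup_right hys')
  -- `M` normalises the members of `𝓡`
  have hMnorm : ∀ D ∈ 𝓡, M ≤ Subgroup.normalizer (D : Set G) := fun D hD =>
    Cfsg.Agent.Helper4.minNormal_le_normalizer_of_isSubnormal_aux _ G rfl D M (h𝓡sub D hD)
      hMn hMmin
  have hSM : M ⊓ (S : Subgroup G) ≤ T := by
    obtain ⟨M₀, hM₀⟩ : ∃ M₀ : Subgroup G, M₀ = ⨆ D ∈ 𝓡, M ⊓ D := ⟨_, rfl⟩
    have hM₀le : M₀ ≤ M := by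
      rw [hM₀]; exact iSup₂_le (fun D _ => inf_le_left)
    have hM₀mem : ∀ D ∈ 𝓡, M ⊓ D ≤ M₀ := by
      intro D hD
      rw [hM₀]
      exact le_iSup₂ (f := fun D (_ : D ∈ 𝓡) => M ⊓ D) D hD
    have hM₀n : M₀.Normal := by
      rw [← Subgroup.normalizer_eq_top_iff, eq_top_iff, ← hRtop, hR]
      apply sSup_le
      intro D' hD' g hg
      apply Subgroup.mem_normalizer_fintype
      intro x hx
      have hle : M₀ ≤ M₀.comap (MulAut.conj g).toMonoidHom := by
        rw [hM₀]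
        apply iSup₂_le
        intro D hD y hy
        rw [← hM₀]
        obtain ⟨hyM, hyD⟩ := Subgroup.mem_inf.mp hy
        rw [Subgroup.mem_comap]
        show g * y * g⁻¹ ∈ M₀
        have h1 : g * y * g⁻¹ * y⁻¹ ∈ M ⊓ D' := by
          refine Subgroup.mem_inf.mpr ⟨?_, ?_⟩
          · exact M.mul_mem (hMn.conj_mem y hyM g) (M.inv_mem hyM)
          · have h2 : y * g⁻¹ * y⁻¹ ∈ D' :=
              (Subgroup.mem_normalizer_iff.mp (hMnorm D' hD' hyM) g⁻¹).mp (D'.inv_mem hg)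
            have e : g * y * g⁻¹ * y⁻¹ = g * (y * g⁻¹ * y⁻¹) := by group
            rw [e]; exact D'.mul_mem hg h2
        have h3 : g * y * g⁻¹ * y⁻¹ ∈ M₀ := hM₀mem D' hD' h1
        have h4 : y ∈ M₀ := hM₀mem D hD hy
        have e : g * y * g⁻¹ = (g * y * g⁻¹ * y⁻¹) * y := by group
        rw [e]; exact M₀.mul_mem h3 h4
      exact hle hx
    rcases hMmin M₀ hM₀n hM₀le with h0 | h1
    · -- `M₀ = ⊥`: `M` is central
      have hcent : M ≤ Subgroup.center G := by
        intro m hm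
        rw [Subgroup.mem_center_iff]
        have hle : (⊤ : Subgroup G) ≤ Subgroup.centralizer ({m} : Set G) := by
          rw [← hRtop, hR]
          apply sSup_le
          intro D hD d hd
          rw [Subgroup.mem_centralizer_iff]
          intro m' hm'
          rw [Set.mem_singleton_iff.mp hm']
          have h2 : m * d * m⁻¹ * d⁻¹ ∈ M ⊓ D := by
            refine Subgroup.mem_inf.mpr ⟨?_, ?_⟩
            · have e : m * d * m⁻¹ * d⁻¹ = m * (d * m⁻¹ * d⁻¹) := by group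
              rw [e]; exact M.mul_mem hm (hMn.conj_mem _ (M.inv_mem hm) d)
            · exact D.mul_mem ((Subgroup.mem_normalizer_iff.mp (hMnorm D hD hm) d).mp hd)
                (D.inv_mem hd)
          have h3 : m * d * m⁻¹ * d⁻¹ ∈ M₀ := hM₀mem D hD h2
          rw [h0, Subgroup.mem_bot] at h3
          calc m * d = (m * d * m⁻¹ * d⁻¹) * (d * m) := by group
            _ = d * m := by rw [h3, one_mul]
        intro g
        exact (Subgroup.mem_centralizer_iff.mp (hle (Subgroup.mem_top g)) m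
          (Set.mem_singleton m)).symm
      intro x hx
      obtain ⟨hxM, hxS⟩ := Subgroup.mem_inf.mp hx
      apply mem_of_pow_index_mem S T hxS
      apply central_pow_mem S hgen T _ (hcent hxM)
      intro a ha b hb
      have hcoe : (↑(T ⊔ M) : Set G) = (T : Set G) * (M : Set G) := Subgroup.mul_normal T M
      have ha' : a ∈ (T : Set G) * (M : Set G) := by rw [← hcoe]; exact hSTM ha
      have hb' : b ∈ (T : Set G) * (M : Set G) := by rw [← hcoe]; exact hSTM hb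
      obtain ⟨t₁, ht₁, m₁, hm₁, rfl⟩ := Set.mem_mul.mp ha'
      obtain ⟨t₂, ht₂, m₂, hm₂, rfl⟩ := Set.mem_mul.mp hb'
      rw [comm_central (Subgroup.mem_center_iff.mp (hcent hm₁))
        (Subgroup.mem_center_iff.mp (hcent hm₂))]
      exact T.mul_mem (T.mul_mem (T.mul_mem ht₁ ht₂) (T.inv_mem ht₁)) (T.inv_mem ht₂)
    · -- `M₀ = M`
      by_cases hMtop : M = ⊤
      · have hD : ∃ D ∈ 𝓡, D = ⊤ := by
          by_contra hcon
          push Not at hcon
          have hall : ∀ D ∈ 𝓡, D = ⊥ := by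
            intro D hD
            rcases (h𝓡sub D hD).lt_normal with h | ⟨K, hKn, hDK, hKlt⟩
            · exact absurd h (hcon D hD)
            · rcases hMmin K hKn (by rw [hMtop]; exact le_top) with hK | hK
              · rw [hK] at hDK; exact le_bot_iff.mp hDK
              · rw [hK, hMtop] at hKlt; exact absurd hKlt (lt_irrefl _)
          have hRbot : R = ⊥ := by
            rw [hR, sSup_eq_bot]; exact hall
          rw [hRtop] at hRbot
          exact top_ne_bot hRbot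
        obtain ⟨D, hD, hDtop⟩ := hD
        have h2 := h𝓡T D hD
        rw [hDtop, top_inf_eq] at h2
        exact inf_le_right.trans h2
      · have hlt : Nat.card M < n := by
          rw [← hn]
          exact lt_of_le_of_ne (Subgroup.card_le_card_group _)
            (fun h => hMtop (Subgroup.eq_top_of_card_eq _ h))
        have key := rel M hMn.isSubnormal hlt ((fun D : Subgroup G => M ⊓ D) '' 𝓡) (by
          rintro _ ⟨D, hD, rfl⟩
          exact ⟨hMn.isSubnormal.inf (h𝓡sub D hD), inf_le_left⟩)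
        have e1 : sSup ((fun D : Subgroup G => M ⊓ D) '' 𝓡) = M := by
          rw [sSup_image, ← hM₀]; exact h1
        rw [e1] at key
        refine key.trans (iSup₂_le ?_)
        rintro _ ⟨D, hD, rfl⟩
        exact (inf_le_inf_right _ inf_le_right).trans (h𝓡T D hD)
  -- finish
  intro x hx
  have hxS : x ∈ (S : Subgroup G) := (Subgroup.mem_inf.mp hx).2
  have hcoe : (↑(T ⊔ M) : Set G) = (T : Set G) * (M : Set G) := Subgroup.mul_normal T M
  have hx' : x ∈ (T : Set G) * (M : Set G) := by rw [← hcoe]; exact hSTM hxS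
  obtain ⟨t, ht, m, hm, rfl⟩ := Set.mem_mul.mp hx'
  have hmS : m ∈ (S : Subgroup G) := by
    have e : m = t⁻¹ * (t * m) := by group
    rw [e]; exact Subgroup.mul_mem _ (Subgroup.inv_mem _ (hTS ht)) hxS
  exact T.mul_mem ht (hSM (Subgroup.mem_inf.mpr ⟨hm, hmS⟩))

/-- **Wielandt.** For subnormal subgroups `A₁, A₂` and a Sylow `p`-subgroup `S`:
`(A₁ ⊔ A₂) ⊓ S = (A₁ ⊓ S) ⊔ (A₂ ⊓ S)`. -/
theorem wielandt_inf_sup {G : Type u} [Group G] [Finite G] {p : ℕ} [Fact p.Prime] (S : Sylow p G)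
    (A₁ A₂ : Subgroup G) (h₁ : A₁.IsSubnormal) (h₂ : A₂.IsSubnormal) :
    (A₁ ⊔ A₂) ⊓ (S : Subgroup G) = (A₁ ⊓ (S : Subgroup G)) ⊔ (A₂ ⊓ (S : Subgroup G)) := by
  apply le_antisymm
  · have h := wielandt_aux p _ G rfl S {A₁, A₂} (by
      intro B hB
      rcases hB with rfl | rfl
      · exact h₁
      · exact h₂)
    rw [sSup_pair, iSup_pair] at h
    exact h
  · exact sup_le (inf_le_inf_right _ le_sup_left) (inf_le_inf_right _ le_sup_right)

end Cfsg.Agent.Lead
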